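import Mathlib
import Cfsg.Agent.MaxCent.Basic

/-!
The possible maximal centralisers.
-/

set_option autoImplicit false

namespace CfsgLib.MaxCent

open scoped commutatorElement Pointwise

variable {G : Type*} [Group G] [Finite G]

/-- Everything has a `p`-power in the centre. -/
def PMod (p : ℕ) (G : Type*) [Group G] : Prop :=
  ∀ g : G, ∃ k, g ^ p ^ k ∈ Subgroup.center G

namespace Hyp

variable (h : Hyp G)
include h

/-- A non-abelian centraliser is not normal. -/
theorem not_normal_of_nonAb {p : ℕ} (hp : p.Prime) (hP : ¬ PMod p G) {x : G} (hx : IsPElem p x)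
    (hx' : x ∉ Subgroup.center G) (hab : ¬ Ab (cent x)) : ¬ (cent x).Normal := by
  intro hn
  haveI := hn
  set M := cent x with hM
  have hMc := h x hx'
  have hl := prime_index hMc
  have hlp : M.index ≠ p := fun e => hP fun g => by
    obtain ⟨k, hk⟩ := h.pow_mem_center hp hx hx' hab (g := g ^ p) (by rw [← e]; exact M.pow_index_mem g)
    exact ⟨k + 1, by rwa [pow_succ', pow_mul]⟩
  obtain ⟨g, hg⟩ : ∃ g, g ∉ M := by
    by_contra hcon
    push Not at hcon
    exact hMc.1 (eq_top_iff.2 fun g _ => hcon g)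
  obtain ⟨q, hq, k, ⟨a, ha⟩, hk⟩ := exists_part hg
  have hq' : q = M.index := by
    by_contra hne
    exact hk (mem_of_two_pows (((Nat.coprime_primes hq hl).2 hne).pow_left a) (by rw [ha]; exact one_mem M)
      (M.pow_index_mem _))
  set y := g ^ k with hy
  have hy' : y ∉ Subgroup.center G := fun hc => hk (center_le_cent x hc)
  set A := cent y with hA
  have hAMab : ∀ c ∈ A ⊓ M, ∀ d ∈ A ⊓ M, c * d = d * c := by
    intro c hc d hd
    by_cases hAab : Ab A
    · exact hAab c hc.1 d hd.1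
    · obtain ⟨i, hi⟩ := h.pow_mem_center hq ⟨a, ha⟩ hy' hAab hc.1
      obtain ⟨j, hj⟩ := h.pow_mem_center hp hx hx' hab hc.2
      have hcc : c ∈ Subgroup.center G :=
        mem_of_two_pows (((Nat.coprime_primes hq hp).2 (by rw [hq']; exact hlp)).pow i j) hi hj
      exact (Subgroup.mem_center_iff.1 hcc d).symm
  set E : Subgroup G := M ⊓ Subgroup.centralizer (M : Set G) with hE
  haveI : E.Normal := by rw [hE]; infer_instance
  have hxE : x ∈ E := ⟨self_mem_cent x, Subgroup.mem_centralizer_iff.2 fun b hb => mem_cent.1 hb⟩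
  have hxA : x ∉ A := fun hc => hk (mem_cent.2 (mem_cent.1 hc).symm)
  have htop : A ⊔ E = ⊤ := (h y hy').2 _ (lt_of_le_of_ne le_sup_left fun e => hxA (e.ge (Subgroup.mem_sup_right hxE)))
  refine hab fun m hm n hn => ?_
  obtain ⟨c, hc, e, he, rfl⟩ := Subgroup.mem_sup_of_normal_right.1 (htop.ge (Subgroup.mem_top m))
  obtain ⟨d, hd, f, hf, rfl⟩ := Subgroup.mem_sup_of_normal_right.1 (htop.ge (Subgroup.mem_top n))
  have hcM : c ∈ M := by simpa [mul_assoc] using M.mul_mem hm (M.inv_mem he.1)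
  have hdM : d ∈ M := by simpa [mul_assoc] using M.mul_mem hn (M.inv_mem hf.1)
  have he' : ∀ b ∈ M, Commute e b := fun b hb => (Subgroup.mem_centralizer_iff.1 he.2 b hb).symm
  have hf' : ∀ b ∈ M, Commute f b := fun b hb => (Subgroup.mem_centralizer_iff.1 hf.2 b hb).symm
  have hcd : Commute c d := hAMab c ⟨hc, hcM⟩ d ⟨hd, hdM⟩
  exact ((hcd.mul_right (hf' c hcM).symm).mul_left ((he' d hdM).mul_right (he' f hf.1))).eq

theorem isPGroup_map {p : ℕ} (hp : p.Prime) {x : G} (hx : IsPElem p x) (hx' : x ∉ Subgroup.center G)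
    (hab : ¬ Ab (cent x)) : IsPGroup p ((cent x).map (QuotientGroup.mk' (Subgroup.center G))) := by
  rintro ⟨_, g, hg, rfl⟩
  obtain ⟨k, hk⟩ := h.pow_mem_center hp hx hx' hab hg
  exact ⟨k, Subtype.ext (by
    rw [SubgroupClass.coe_pow, OneMemClass.coe_one, ← map_pow, QuotientGroup.mk'_apply, QuotientGroup.eq_one_iff]
    exact hk)⟩

/-- A non-abelian centraliser of a `p`-element has index prime to `p`. -/
theorem not_dvd_index {p : ℕ} (hp : p.Prime) (hP : ¬ PMod p G) {x : G} (hx : IsPElem p x)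
    (hx' : x ∉ Subgroup.center G) (hab : ¬ Ab (cent x)) : ¬ p ∣ (cent x).index := by
  haveI := Fact.mk hp
  set π := QuotientGroup.mk' (Subgroup.center G) with hπ
  have hπs : Function.Surjective π := QuotientGroup.mk'_surjective _
  have hker : π.ker ≤ cent x := by rw [hπ, QuotientGroup.ker_mk']; exact center_le_cent x
  have hidx : ((cent x).map π).index = (cent x).index := Subgroup.index_map_eq _ hπs hker
  rw [← hidx]
  refine not_dvd_index_of_selfNormalizing (h.isPGroup_map hp hx hx' hab) ?_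
  have hcomap : ((cent x).map π).comap π = cent x := by
    rw [Subgroup.comap_map_eq, sup_eq_left.2 hker]
  apply Subgroup.comap_injective hπs
  rw [Subgroup.comap_normalizer_eq_of_surjective _ hπs, hcomap,
    normalizer_eq (h x hx') (h.not_normal_of_nonAb hp hP hx hx' hab)]

theorem exists_conj_mem {p : ℕ} (hp : p.Prime) (hP : ¬ PMod p G) {x : G} (hx : IsPElem p x)
    (hx' : x ∉ Subgroup.center G) (hab : ¬ Ab (cent x)) {a : G} (ha : IsPElem p a) :
    ∃ g : G, g⁻¹ * a * g ∈ cent x := by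
  haveI := Fact.mk hp
  have hpg : IsPGroup p (Subgroup.zpowers a) := by
    rintro ⟨z, hz⟩
    obtain ⟨i, rfl⟩ := Subgroup.mem_zpowers_iff.1 hz
    obtain ⟨n, hn⟩ := ha
    exact ⟨n, Subtype.ext (by
      rw [SubgroupClass.coe_pow, OneMemClass.coe_one, ← zpow_natCast (a ^ i), ← zpow_mul, mul_comm i, zpow_mul,
        zpow_natCast, hn, one_zpow])⟩
  obtain ⟨c, hc⟩ := hpg.nonempty_fixed_point_of_prime_not_dvd_card (G ⧸ cent x)
    (by rw [← Subgroup.index_eq_card]; exact h.not_dvd_index hp hP hx hx' hab)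
  obtain ⟨g, rfl⟩ := QuotientGroup.mk_surjective c
  refine ⟨g, ?_⟩
  have h2 : ((a * g : G) : G ⧸ cent x) = (g : G ⧸ cent x) := hc ⟨a, Subgroup.mem_zpowers a⟩
  rw [QuotientGroup.eq] at h2
  rw [show g⁻¹ * a * g = ((a * g)⁻¹ * g)⁻¹ by group]
  exact inv_mem h2

/-- All non-central `p`-elements have non-abelian centralisers once one of them has. -/
theorem nonAb_of_nonAb {p : ℕ} (hp : p.Prime) (hP : ¬ PMod p G) {x : G} (hx : IsPElem p x)
    (hx' : x ∉ Subgroup.center G) (hab : ¬ Ab (cent x)) {a : G} (ha : IsPElem p a)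
    (ha' : a ∉ Subgroup.center G) : ¬ Ab (cent a) := by
  intro haab
  obtain ⟨g, hg⟩ := h.exists_conj_mem hp hP hx hx' hab ha
  have hga : g * x * g⁻¹ ∈ cent a := mem_cent.2 (by
    have := mem_cent.1 hg
    calc g * x * g⁻¹ * a = g * (x * (g⁻¹ * a * g)) * g⁻¹ := by group
      _ = g * ((g⁻¹ * a * g) * x) * g⁻¹ := by rw [this]
      _ = a * (g * x * g⁻¹) := by group)
  have h1 := h.eq_of_ab ha' (fun hc => hx' (conj_mem_center.1 hc)) haab hga
  refine hab ((ab_conj g).1 ?_)
  rw [← cent_conj, h1]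
  exact haab

theorem false_of_normal_pgroup {p r s : ℕ} (hp : p.Prime) (hr : r.Prime) (hs : s.Prime) (hsr : s ≠ r)
    (hpr : p ≠ r) (hP : ¬ PMod p G) {x y : G} (hx : IsPElem p x) (hx' : x ∉ Subgroup.center G)
    (hxab : ¬ Ab (cent x)) (hy : IsPElem r y) (hy' : y ∉ Subgroup.center G) (hyab : ¬ Ab (cent y))
    (U : Subgroup G) [U.Normal] (hZU : Subgroup.center G ≤ U) {u : G} (hu : u ∈ U)
    (hu' : u ∉ Subgroup.center G) (hUs : ∀ v ∈ U, ∃ k, v ^ s ^ k ∈ Subgroup.center G) : False := by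
  have hUy : cent y ⊔ U = ⊤ := by
    refine (h y hy').2 _ (lt_of_le_of_ne le_sup_left fun e => hu' ?_)
    have huy : u ∈ cent y := e.ge (Subgroup.mem_sup_right hu)
    obtain ⟨i, hi⟩ := hUs u hu
    obtain ⟨j, hj⟩ := h.pow_mem_center hr hy hy' hyab huy
    exact mem_of_two_pows (((Nat.coprime_primes hs hr).2 hsr).pow i j) hi hj
  have hpw : ∀ g : G, ∃ k, g ^ r ^ k ∈ U := by
    intro g
    obtain ⟨c, hc, v, hv, rfl⟩ := Subgroup.mem_sup_of_normal_right.1 (hUy.ge (Subgroup.mem_top g))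
    obtain ⟨k, hk⟩ := h.pow_mem_center hr hy hy' hyab hc
    refine ⟨k, ?_⟩
    rw [← QuotientGroup.eq_one_iff]
    rw [QuotientGroup.mk_pow, QuotientGroup.mk_mul, (QuotientGroup.eq_one_iff v).2 hv, mul_one,
      ← QuotientGroup.mk_pow]
    exact (QuotientGroup.eq_one_iff _).2 (hZU hk)
  have hps : p = s := by
    by_contra hps
    obtain ⟨n, hn⟩ := hx
    obtain ⟨k, hk⟩ := hpw x
    obtain ⟨j, hj⟩ := hUs _ hk
    refine hx' (mem_of_two_pows (m := r ^ k * s ^ j) (n := p ^ n) ?_ (by rwa [pow_mul]) (by rw [hn]; exact one_mem _))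
    exact Nat.Coprime.mul_left (((Nat.coprime_primes hr hp).2 hpr.symm).pow k n)
      (((Nat.coprime_primes hs hp).2 (Ne.symm hps)).pow j n)
  subst hps
  by_cases hUM : U ≤ cent x
  · refine h.not_normal_of_nonAb hp hP hx hx' hxab ?_
    have : cent x = U := by
      refine le_antisymm (fun g hg => ?_) hUM
      obtain ⟨c, hc, v, hv, rfl⟩ := Subgroup.mem_sup_of_normal_right.1 (hUy.ge (Subgroup.mem_top g))
      have hcx : c ∈ cent x := by simpa [mul_assoc] using (cent x).mul_mem hg ((cent x).inv_mem (hUM hv))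
      obtain ⟨i, hi⟩ := h.pow_mem_center hp hx hx' hxab hcx
      obtain ⟨j, hj⟩ := h.pow_mem_center hr hy hy' hyab hc
      exact U.mul_mem (hZU (mem_of_two_pows (((Nat.coprime_primes hp hr).2 hpr).pow i j) hi hj)) hv
    rw [this]
    infer_instance
  · have htop : cent x ⊔ U = ⊤ :=
      (h x hx').2 _ (lt_of_le_of_ne le_sup_left fun e => hUM (le_sup_right.trans e.ge))
    refine hP fun g => ?_
    obtain ⟨c, hc, v, hv, rfl⟩ := Subgroup.mem_sup_of_normal_right.1 (htop.ge (Subgroup.mem_top g))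
    obtain ⟨i, hi⟩ := h.pow_mem_center hp hx hx' hxab hc
    have h1 : (c * v) ^ p ^ i ∈ U := by
      rw [← QuotientGroup.eq_one_iff, QuotientGroup.mk_pow, QuotientGroup.mk_mul, (QuotientGroup.eq_one_iff v).2 hv,
        mul_one, ← QuotientGroup.mk_pow]
      exact (QuotientGroup.eq_one_iff _).2 (hZU hi)
    obtain ⟨j, hj⟩ := hUs _ h1
    exact ⟨i + j, by rwa [pow_add, pow_mul]⟩

/-- Non-abelian centralisers come from one prime only. -/
theorem eq_prime_of_nonAb {p r : ℕ} (hp : p.Prime) (hr : r.Prime) (hP : ∀ l : ℕ, l.Prime → ¬ PMod l G)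
    {x y : G} (hx : IsPElem p x) (hx' : x ∉ Subgroup.center G) (hxab : ¬ Ab (cent x)) (hy : IsPElem r y)
    (hy' : y ∉ Subgroup.center G) (hyab : ¬ Ab (cent y)) : p = r := by
  by_contra hpr
  wlog hr2 : r ≠ 2 generalizing p r x y
  · exact this hr hp hy hy' hyab hx hx' hxab (Ne.symm hpr) fun e => hpr (e.trans (not_not.1 hr2).symm)
  haveI := Fact.mk hr
  set π := QuotientGroup.mk' (Subgroup.center G) with hπ
  have hπs : Function.Surjective π := QuotientGroup.mk'_surjective _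
  set M := (cent y).map π with hM
  have hcomap : M.comap π = cent y := by
    rw [hM, Subgroup.comap_map_eq, hπ, QuotientGroup.ker_mk', sup_eq_left.2 (center_le_cent y)]
  have hmax : IsCoatom M := by
    refine ⟨fun e => (h y hy').1 (by rw [← hcomap, e, Subgroup.comap_top]), fun B hB => ?_⟩
    have h1 : cent y < B.comap π := by
      rw [← hcomap]
      exact (Subgroup.comap_lt_comap_of_surjective hπs).2 hB
    rw [← Subgroup.map_comap_eq_self_of_surjective hπs B, (h y hy').2 _ h1, Subgroup.map_top_of_surjective _ hπs]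
  have hMp : IsPGroup r M := h.isPGroup_map hr hy hy' hyab
  obtain ⟨n, hn⟩ := hMp.exists_card_eq
  haveI := CfsgLib.ZJ.isSolvable_of_nilpotent_maximal_odd hmax hMp.isNilpotent
    (by rw [hn]; exact (hr.odd_of_ne_two hr2).pow)
  haveI : Nontrivial (G ⧸ Subgroup.center G) :=
    ⟨⟨π x, 1, fun e => hx' ((QuotientGroup.eq_one_iff x).1 e)⟩⟩
  obtain ⟨N, hN⟩ := CfsgLib.Hall.exists_isMinNormal (G := G ⧸ Subgroup.center G)
  haveI := hN.1
  haveI : Group.IsSolvable N := inferInstance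
  obtain ⟨s, hs, -, -, hNs⟩ := hN.elementaryAbelian
  obtain ⟨⟨w, hw⟩, hw1'⟩ := Subgroup.ne_bot_iff_exists_ne_one.1 hN.2.1
  have hw1 : w ≠ 1 := fun e => hw1' (Subtype.ext e)
  obtain ⟨u, rfl⟩ := hπs w
  have hu' : u ∉ Subgroup.center G := fun hc => hw1 ((QuotientGroup.eq_one_iff u).2 hc)
  have hZU : Subgroup.center G ≤ N.comap π := fun z hz => by
    rw [Subgroup.mem_comap, show π z = 1 from (QuotientGroup.eq_one_iff z).2 hz]
    exact one_mem N
  have hUs : ∀ v ∈ N.comap π, ∃ k, v ^ s ^ k ∈ Subgroup.center G := fun v hv => ⟨1, by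
    rw [pow_one, ← QuotientGroup.eq_one_iff, QuotientGroup.mk_pow]
    exact hNs _ hv⟩
  by_cases hsr : s = r
  · exact h.false_of_normal_pgroup hr hp hs (hsr ▸ Ne.symm hpr) (Ne.symm hpr) (hP r hr) hy hy' hyab hx hx' hxab
      (N.comap π) hZU hw hu' hUs
  · exact h.false_of_normal_pgroup hp hr hs hsr hpr (hP p hp) hx hx' hxab hy hy' hyab
      (N.comap π) hZU hw hu' hUs

end Hyp

end CfsgLib.MaxCent
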