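import Mathlib
import Cfsg.Agent.MaxCent.Types

/-!
Counting the conjugates of an abelian maximal centraliser.
-/

set_option autoImplicit false

namespace CfsgLib.MaxCent

open scoped commutatorElement Pointwise

variable {G : Type*} [Group G] [Finite G]

/-- The non-central elements of the conjugates of `A`. -/
def cov (A : Subgroup G) : Set G := {g | g ∉ Subgroup.center G ∧ ∃ u : G, u⁻¹ * g * u ∈ A}

theorem ncard_center : (Subgroup.center G : Set G).ncard = Nat.card (Subgroup.center G) :=
  (Nat.card_coe_set_eq _).symm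

theorem ncard_subgroup (A : Subgroup G) : (A : Set G).ncard = Nat.card A := (Nat.card_coe_set_eq _).symm

namespace Hyp

variable (h : Hyp G)
include h

/-- The conjugates of an abelian non-normal centraliser intersect in the centre. -/
theorem cov_card {x : G} (hx : x ∉ Subgroup.center G) (hab : Ab (cent x)) (hn : ¬ (cent x).Normal) :
    (cov (cent x)).ncard + (cent x).index * Nat.card (Subgroup.center G) = Nat.card G := by
  classical
  set A := cent x with hA
  have hTI : ∀ u a : G, a ∈ A → a ∉ Subgroup.center G → u * a * u⁻¹ ∈ A → u ∈ A := by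
    intro u a ha ha' hua
    have h1 := h.eq_of_ab hx ha' hab ha
    have h2 := h.eq_of_ab hx (fun hc => ha' (conj_mem_center.1 hc)) hab hua
    rw [cent_conj, h1] at h2
    have : u ∈ Subgroup.normalizer (A : Set G) := by
      rw [Subgroup.mem_normalizer_iff_map_conj_eq]
      exact h2
    rwa [normalizer_eq (h x hx) hn] at this
  let f : (G ⧸ A) × ↥((A : Set G) \ (Subgroup.center G : Set G)) → cov A := fun z =>
    ⟨z.1.out * (z.2 : G) * z.1.out⁻¹, fun hc => z.2.2.2 (conj_mem_center.1 hc), z.1.out, by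
      rw [show z.1.out⁻¹ * (z.1.out * (z.2 : G) * z.1.out⁻¹) * z.1.out = (z.2 : G) by group]
      exact z.2.2.1⟩
  have hf : Function.Bijective f := by
    refine ⟨?_, ?_⟩
    · rintro ⟨a, ⟨m, hm⟩⟩ ⟨b, ⟨k, hk⟩⟩ e
      have e' : a.out * m * a.out⁻¹ = b.out * k * b.out⁻¹ := congrArg Subtype.val e
      have h1 : (b.out⁻¹ * a.out) * m * (b.out⁻¹ * a.out)⁻¹ = k := by
        calc (b.out⁻¹ * a.out) * m * (b.out⁻¹ * a.out)⁻¹ = b.out⁻¹ * (a.out * m * a.out⁻¹) * b.out := by group
          _ = k := by rw [e']; group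
      have hab' : a = b := by
        have := QuotientGroup.eq.2 (hTI _ m hm.1 hm.2 (h1.symm ▸ hk.1))
        rw [QuotientGroup.out_eq', QuotientGroup.out_eq'] at this
        exact this.symm
      subst hab'
      have : m = k := mul_left_cancel (mul_right_cancel e')
      subst this
      rfl
    · rintro ⟨g, hg, u, hu⟩
      obtain ⟨n, hn'⟩ := QuotientGroup.mk_out_eq_mul A u
      have hmem : (n : G)⁻¹ * (u⁻¹ * g * u) * n ∈ A := A.mul_mem (A.mul_mem (A.inv_mem n.2) hu) n.2
      refine ⟨⟨(u : G ⧸ A), ⟨_, hmem, fun hc => hg ?_⟩⟩, Subtype.ext ?_⟩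
      · have := Subgroup.Normal.conj_mem (inferInstance : (Subgroup.center G).Normal) _ hc (u * (n : G))
        rwa [show u * (n : G) * ((n : G)⁻¹ * (u⁻¹ * g * u) * n) * (u * (n : G))⁻¹ = g by group] at this
      · show (u : G ⧸ A).out * _ * (u : G ⧸ A).out⁻¹ = g
        rw [hn']
        group
  have h1 := Nat.card_eq_of_bijective f hf
  rw [Nat.card_prod, ← Subgroup.index_eq_card, Nat.card_coe_set_eq, Nat.card_coe_set_eq] at h1
  have h2 := Set.ncard_sdiff_add_ncard_of_subset
    (show (Subgroup.center G : Set G) ⊆ (A : Set G) from center_le_cent x)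
  rw [ncard_center, ncard_subgroup] at h2
  rw [← h1, ← mul_add, h2, A.index_mul_card]

/-- The centre is at most half of a centraliser. -/
theorem two_center_le {x : G} (hx : x ∉ Subgroup.center G) :
    2 * Nat.card (Subgroup.center G) ≤ Nat.card (cent x) := by
  obtain ⟨c, hc⟩ := Subgroup.card_dvd_of_le (center_le_cent x)
  rcases c with _ | _ | c
  · simp [Nat.card_pos.ne'] at hc
  · exact absurd ((Subgroup.eq_of_le_of_card_ge (center_le_cent x) (by rw [hc, zero_add, mul_one])).ge (self_mem_cent x)) hx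
  · rw [hc, mul_comm]; exact Nat.mul_le_mul_left _ (by omega)

theorem two_cov {x : G} (hx : x ∉ Subgroup.center G) :
    2 * ((cent x).index * Nat.card (Subgroup.center G)) ≤ Nat.card G := by
  rw [← (cent x).index_mul_card, mul_left_comm]
  exact Nat.mul_le_mul_left _ (h.two_center_le hx)

/-- There is one class of non-normal abelian centralisers. -/
theorem conj_of_ab {x y : G} (hx : x ∉ Subgroup.center G) (hab : Ab (cent x)) (hn : ¬ (cent x).Normal)
    (hy : y ∉ Subgroup.center G) (hab' : Ab (cent y)) (hn' : ¬ (cent y).Normal) :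
    ∃ u : G, cent y = MulAut.conj u • cent x := by
  by_contra hcon
  push Not at hcon
  have hdisj : Disjoint (cov (cent x)) (cov (cent y)) := by
    rw [Set.disjoint_left]
    rintro g ⟨hg, u, hu⟩ ⟨-, w, hw⟩
    have hu' : u⁻¹ * g * u⁻¹⁻¹ ∉ Subgroup.center G := fun hc => hg (conj_mem_center.1 hc)
    have hw' : w⁻¹ * g * w⁻¹⁻¹ ∉ Subgroup.center G := fun hc => hg (conj_mem_center.1 hc)
    rw [inv_inv] at hu' hw'
    have h1 : cent g = MulAut.conj u • cent x := by
      rw [← h.eq_of_ab hx hu' hab hu, ← cent_conj, show u * (u⁻¹ * g * u) * u⁻¹ = g by group]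
    have h2 : cent g = MulAut.conj w • cent y := by
      rw [← h.eq_of_ab hy hw' hab' hw, ← cent_conj, show w * (w⁻¹ * g * w) * w⁻¹ = g by group]
    refine hcon (w⁻¹ * u) ?_
    rw [map_mul, mul_smul, ← h1, h2, smul_smul, ← map_mul, inv_mul_cancel, map_one, one_smul]
  have hsub : cov (cent x) ∪ cov (cent y) ⊆ (Subgroup.center G : Set G)ᶜ := by
    rintro g (hg | hg) <;> exact hg.1
  have h1 := Set.ncard_le_ncard hsub
  rw [Set.ncard_union_eq hdisj, Set.ncard_compl, ncard_center] at h1
  have a := h.cov_card hx hab hn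
  have b := h.cov_card hy hab' hn'
  have a' := h.two_cov hx
  have b' := h.two_cov hy
  have c : 0 < Nat.card (Subgroup.center G) := Nat.card_pos
  have d : Nat.card (Subgroup.center G) ≤ Nat.card G := Subgroup.card_le_card_group _
  omega

/-- A non-central element outside the conjugates. -/
theorem exists_outside {x : G} (hx : x ∉ Subgroup.center G) (hab : Ab (cent x)) (hn : ¬ (cent x).Normal) :
    ∃ g : G, g ∉ Subgroup.center G ∧ ∀ u : G, u⁻¹ * g * u ∉ cent x := by
  by_contra hcon
  push Not at hcon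
  have heq : cov (cent x) = (Subgroup.center G : Set G)ᶜ := Set.ext fun g =>
    ⟨fun hg => hg.1, fun hg => ⟨hg, hcon g hg⟩⟩
  have a := h.cov_card hx hab hn
  rw [heq, Set.ncard_compl, ncard_center] at a
  have c : 0 < Nat.card (Subgroup.center G) := Nat.card_pos
  have d : Nat.card (Subgroup.center G) ≤ Nat.card G := Subgroup.card_le_card_group _
  have h2 : 2 * Nat.card (Subgroup.center G) ≤ (cent x).index * Nat.card (Subgroup.center G) :=
    Nat.mul_le_mul_right _ (two_le_index (h x hx))
  omega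

/-- An abelian centraliser has no non-central `p`-elements if `p` has non-abelian centralisers. -/
theorem center_of_mem_ab {p : ℕ} (hp : p.Prime) (hP : ¬ PMod p G) {x : G} (hx : IsPElem p x)
    (hx' : x ∉ Subgroup.center G) (hxab : ¬ Ab (cent x)) {y : G} (hy' : y ∉ Subgroup.center G)
    (hyab : Ab (cent y)) {a : G} (ha : IsPElem p a) (hay : a ∈ cent y) : a ∈ Subgroup.center G := by
  by_contra hac
  refine h.nonAb_of_nonAb hp hP hx hx' hxab ha hac ?_
  rw [h.eq_of_ab hy' hac hyab hay]
  exact hyab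

/-- All centralisers are abelian unless the group is a `p`-group modulo the centre. -/
theorem ab_all (hP : ∀ l : ℕ, l.Prime → ¬ PMod l G) (x0 : G) (hx0 : x0 ∉ Subgroup.center G) : Ab (cent x0) := by
  classical
  by_contra hab0
  obtain ⟨p, hp, x, hx, hx', hxe⟩ := h.exists_pElem x0 hx0
  have hxab : ¬ Ab (cent x) := by rwa [hxe]
  haveI := Fact.mk hp
  set Z := Subgroup.center G with hZ
  set M := cent x with hM
  have hMn := h.not_normal_of_nonAb hp (hP p hp) hx hx' hxab
  have hother : ∀ q : ℕ, q.Prime → q ≠ p → ∀ u : G, IsPElem q u → u ∉ Z → Ab (cent u) := fun q hq hqp u hu hu' => by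
    by_contra hc
    exact hqp (h.eq_prime_of_nonAb hq hp hP hu hu' hc hx hx' hxab)
  -- a prime power element for another prime
  obtain ⟨q, hq, hqp, y, hy, hy'⟩ : ∃ q : ℕ, q.Prime ∧ q ≠ p ∧ ∃ y : G, IsPElem q y ∧ y ∉ Z := by
    by_contra hcon
    push Not at hcon
    refine hP p hp fun g => ?_
    obtain ⟨v, n, hn, hgn⟩ := Nat.exists_eq_pow_mul_and_not_dvd (orderOf_pos g).ne' p hp.ne_one
    refine ⟨v, mem_of_parts fun r hr k hk => ?_⟩
    by_cases hrp : r = p
    · subst hrp
      obtain ⟨a, ha⟩ := hk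
      have h1 : (g ^ r ^ v) ^ n = 1 := by rw [← pow_mul, ← hgn, pow_orderOf_eq_one]
      have h2 : ((g ^ r ^ v) ^ k) ^ n = 1 := by rw [← pow_mul, mul_comm, pow_mul, h1, one_pow]
      have h3 : (g ^ r ^ v) ^ k = 1 := orderOf_eq_one_iff.1 (Nat.eq_one_of_dvd_coprimes
        ((hp.coprime_iff_not_dvd.2 hn).pow_left a) (orderOf_dvd_of_pow_eq_one ha) (orderOf_dvd_of_pow_eq_one h2))
      rw [h3]
      exact one_mem _
    · exact hcon r hr hrp _ hk
  have hyab := hother q hq hqp y hy hy'
  set A := cent y with hA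
  have hAM : ∀ u : G, ∀ g ∈ A, u⁻¹ * g * u ∈ M → g ∈ Z := by
    intro u g hg hgM
    refine mem_of_parts fun r hr k hk => ?_
    by_cases hrp : r = p
    · subst hrp
      exact h.center_of_mem_ab hp (hP r hp) hx hx' hxab hy' hyab hk (A.pow_mem hg k)
    · have h1 : u⁻¹ * g ^ k * u⁻¹⁻¹ ∈ M := by
        rw [← conj_pow]
        simpa using M.pow_mem hgM k
      exact conj_mem_center.1 (h.mem_center_of_other hp hr hrp hx hx' hxab (hk.conj u⁻¹) h1)
  have hAn : ¬ A.Normal := by
    intro hn
    haveI := hn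
    haveI := Fact.mk (prime_index (h y hy'))
    have hin : ∀ g ∈ M, g ∈ A → g ∈ Z := fun g hgM hgA => hAM 1 g hgA (by simpa using hgM)
    haveI : IsCyclic (G ⧸ A) := isCyclic_of_prime_card (p := A.index) A.index_eq_card.symm
    refine hxab fun m hm n hn' => ?_
    by_cases hmZ : m ∈ Z
    · exact (Subgroup.mem_center_iff.1 hmZ n).symm
    have hm1 : (m : G ⧸ A) ≠ 1 := fun e => hmZ (hin m hm ((QuotientGroup.eq_one_iff m).1 e))
    obtain ⟨i, hi⟩ : (n : G ⧸ A) ∈ Subgroup.zpowers (m : G ⧸ A) :=
      mem_zpowers_of_prime_card (p := A.index) A.index_eq_card.symm hm1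
    have hi' : (m : G ⧸ A) ^ i = (n : G ⧸ A) := hi
    rw [← QuotientGroup.mk_zpow, QuotientGroup.eq] at hi'
    have hz := hin _ (M.mul_mem (M.inv_mem (M.zpow_mem hm i)) hn') hi'
    calc m * n = m * (m ^ i * ((m ^ i)⁻¹ * n)) := by group
      _ = m ^ i * (m * ((m ^ i)⁻¹ * n)) := by
          rw [← mul_assoc, (Commute.self_zpow m i).eq, mul_assoc]
      _ = m ^ i * (((m ^ i)⁻¹ * n) * m) := by rw [Subgroup.mem_center_iff.1 hz m]
      _ = n * m := by group
  -- the index of `A` is a power of `p`
  have hiA : ∀ r : ℕ, r.Prime → r ≠ p → r ∣ A.index → ¬ r ∣ Z.index := by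
    intro r hr hrp hrA hrZ
    haveI := Fact.mk hr
    obtain ⟨R⟩ := (inferInstance : Nonempty (Sylow r G))
    set W : Subgroup R := Z.subgroupOf R with hW
    have hRZ : ¬ (R : Subgroup G) ≤ Z := fun hle => R.not_dvd_index (hrZ.trans (Subgroup.index_dvd_of_le hle))
    haveI : Nontrivial (R ⧸ W) := QuotientGroup.nontrivial_iff.2 fun e => hRZ (Subgroup.subgroupOf_eq_top.1 e)
    haveI := (R.2.to_quotient W).center_nontrivial
    obtain ⟨⟨e, he⟩, he1⟩ := exists_ne (1 : Subgroup.center (R ⧸ W))
    obtain ⟨u, rfl⟩ := QuotientGroup.mk_surjective e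
    have hu' : (u : G) ∉ Z := fun hc => he1 (Subtype.ext ((QuotientGroup.eq_one_iff u).2 hc))
    have hur : IsPElem r (u : G) := by
      obtain ⟨k, hk⟩ := R.2 u
      exact ⟨k, by simpa using congrArg Subtype.val hk⟩
    have huab := hother r hr hrp _ hur hu'
    have hun : ¬ (cent (u : G)).Normal := by
      intro hn
      haveI := hn
      obtain ⟨w, hw⟩ := h.exists_outside hy' hyab hAn
      -- the normal one and `A` would force `M` to be abelian
      haveI := Fact.mk (prime_index (h _ hu'))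
      haveI : IsCyclic (G ⧸ cent (u : G)) :=
        isCyclic_of_prime_card (p := (cent (u : G)).index) (cent (u : G)).index_eq_card.symm
      have hin : ∀ g ∈ M, g ∈ cent (u : G) → g ∈ Z := by
        intro g hgM hgu
        refine mem_of_parts fun l hl k hk => ?_
        by_cases hlp : l = p
        · subst hlp
          exact h.center_of_mem_ab hp (hP l hp) hx hx' hxab hu' huab hk ((cent (u : G)).pow_mem hgu k)
        · exact h.mem_center_of_other hp hl hlp hx hx' hxab hk (M.pow_mem hgM k)
      refine hxab fun m hm n hn' => ?_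
      by_cases hmZ : m ∈ Z
      · exact (Subgroup.mem_center_iff.1 hmZ n).symm
      have hm1 : (m : G ⧸ cent (u : G)) ≠ 1 := fun e => hmZ (hin m hm ((QuotientGroup.eq_one_iff m).1 e))
      obtain ⟨i, hi⟩ : (n : G ⧸ cent (u : G)) ∈ Subgroup.zpowers (m : G ⧸ cent (u : G)) :=
        mem_zpowers_of_prime_card (p := (cent (u : G)).index) (cent (u : G)).index_eq_card.symm hm1
      have hi' : (m : G ⧸ cent (u : G)) ^ i = (n : G ⧸ cent (u : G)) := hi
      rw [← QuotientGroup.mk_zpow, QuotientGroup.eq] at hi'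
      have hz := hin _ (M.mul_mem (M.inv_mem (M.zpow_mem hm i)) hn') hi'
      calc m * n = m * (m ^ i * ((m ^ i)⁻¹ * n)) := by group
        _ = m ^ i * (m * ((m ^ i)⁻¹ * n)) := by
            rw [← mul_assoc, (Commute.self_zpow m i).eq, mul_assoc]
        _ = m ^ i * (((m ^ i)⁻¹ * n) * m) := by rw [Subgroup.mem_center_iff.1 hz m]
        _ = n * m := by group
    obtain ⟨w, hw⟩ := h.conj_of_ab hy' hyab hAn hu' huab hun
    have hRA : (R : Subgroup G) ≤ MulAut.conj w • A := by
      intro g hg
      rw [← hw, ← normalizer_eq (h _ hu') hun, Subgroup.mem_normalizer_iff_map_conj_eq]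
      show MulAut.conj g • cent (u : G) = cent (u : G)
      rw [← cent_conj]
      have hc := Subgroup.mem_center_iff.1 he (QuotientGroup.mk ⟨g, hg⟩)
      rw [← QuotientGroup.mk_mul, ← QuotientGroup.mk_mul, QuotientGroup.eq, Subgroup.mem_subgroupOf] at hc
      have hz : (g * (u : G))⁻¹ * ((u : G) * g) ∈ Z := hc
      have hz2 : g * (u : G) * g⁻¹ = (u : G) * ((g * (u : G))⁻¹ * ((u : G) * g))⁻¹ := by
        rw [Subgroup.mem_center_iff] at hz
        have h3 := hz g
        calc g * (u : G) * g⁻¹ = (u : G) * ((u : G)⁻¹ * g * (u : G) * g⁻¹) := by group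
          _ = (u : G) * (g * ((g * (u : G))⁻¹ * ((u : G) * g)) * g⁻¹)⁻¹ := by group
          _ = _ := by rw [h3, mul_inv_cancel_right]
      rw [hz2]
      refine SetLike.ext fun z => ?_
      have hcz : ∀ z : G, Commute z ((g * (u : G))⁻¹ * ((u : G) * g))⁻¹ := fun z =>
        (show Commute z ((g * (u : G))⁻¹ * ((u : G) * g)) from Subgroup.mem_center_iff.1 hz z).inv_right
      rw [mem_cent, mem_cent]
      constructor
      · intro hzu
        have := (show Commute z _ from hzu).mul_right (hcz z).inv_right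
        rwa [mul_inv_cancel_right] at this
      · intro hzu
        exact ((show Commute z (u : G) from hzu).mul_right (hcz z)).eq
    have h1 := Subgroup.index_dvd_of_le hRA
    rw [show (MulAut.conj w • A).index = A.index from Subgroup.index_map_equiv A (MulAut.conj w)] at h1
    exact R.not_dvd_index (hrA.trans h1)
  -- comparing sizes
  obtain ⟨g, hg⟩ : ∃ g : G, g ∉ Subgroup.normalizer (M : Set G) := by
    by_contra hcon
    push Not at hcon
    exact hMn (Subgroup.normalizer_eq_top_iff.1 (eq_top_iff.2 fun g _ => hcon g))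
  obtain ⟨m0, hm0, hm0'⟩ : ∃ m0 ∈ MulAut.conj g • M, m0 ∉ M := by
    by_contra hcon
    push Not at hcon
    refine hg (Subgroup.mem_normalizer_iff_map_conj_eq.2 (Subgroup.eq_of_le_of_card_ge hcon ?_))
    exact (Subgroup.card_map_of_injective (MulAut.conj g).injective).ge
  have hm0Z : m0 ∉ Z := fun hc => hm0' (center_le_cent x hc)
  have hsub : cov A ∪ ((M : Set G) \ (Z : Set G) ∪ {m0}) ⊆ (Z : Set G)ᶜ := by
    rintro z (hz | hz | hz)
    · exact hz.1
    · exact hz.2
    · rw [Set.mem_singleton_iff.1 hz]; exact hm0Z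
  have hd1 : Disjoint ((M : Set G) \ (Z : Set G)) ({m0} : Set G) :=
    Set.disjoint_singleton_right.2 fun hc => hm0' hc.1
  have hd2 : Disjoint (cov A) ((M : Set G) \ (Z : Set G) ∪ {m0}) := by
    rw [Set.disjoint_left]
    rintro z ⟨hz, u, hu⟩ hzM
    have hz2 : ∃ w : G, w⁻¹ * z * w ∈ M := by
      rcases hzM with hzM | hzM
      · exact ⟨1, by simpa using hzM.1⟩
      · rw [Set.mem_singleton_iff.1 hzM]
        exact ⟨g, mem_conj_smul_iff.1 hm0⟩
    obtain ⟨w, hw⟩ := hz2
    refine hz ?_
    have := hAM (u⁻¹ * w) _ hu (by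
      rw [show (u⁻¹ * w)⁻¹ * (u⁻¹ * z * u) * (u⁻¹ * w) = w⁻¹ * z * w by group]; exact hw)
    rw [← inv_inv u] at this
    simp only [inv_inv] at this
    have h2 : u⁻¹ * z * u⁻¹⁻¹ ∈ Z := by rwa [inv_inv]
    exact conj_mem_center.1 h2
  have h1 := Set.ncard_le_ncard hsub
  rw [Set.ncard_union_eq hd2, Set.ncard_union_eq hd1, Set.ncard_singleton, Set.ncard_compl, ncard_center] at h1
  have h2 := Set.ncard_sdiff_add_ncard_of_subset (show (Z : Set G) ⊆ (M : Set G) from center_le_cent x)
  rw [ncard_center, ncard_subgroup] at h2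
  simp only [← hZ] at h1 h2
  have h3 : (cov A).ncard + A.index * Nat.card Z = Nat.card G := h.cov_card hy' hyab hAn
  -- `A.index * |Z| ≤ |M|`
  have h4 : A.index * Nat.card Z ≤ Nat.card M := by
    have hcopA : A.index.Coprime M.index := Nat.coprime_of_dvd fun r hr hrA hrM => by
      by_cases hrp : r = p
      · exact h.not_dvd_index hp (hP p hp) hx hx' hxab (hrp ▸ hrM)
      · exact hiA r hr hrp hrA (hrM.trans (Subgroup.index_dvd_of_le (center_le_cent x)))
    have hdiv : A.index ∣ Z.relIndex M * M.index := by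
      rw [Subgroup.relIndex_mul_index (center_le_cent x)]
      exact Subgroup.index_dvd_of_le (center_le_cent y)
    have h5 := Nat.le_of_dvd (Nat.pos_of_ne_zero fun e => by
      have h0 := Subgroup.relIndex_mul_index (show Z ≤ M from center_le_cent x)
      rw [e, zero_mul] at h0
      exact Subgroup.index_ne_zero_of_finite h0.symm) (hcopA.dvd_of_dvd_mul_right hdiv)
    have h6 : Nat.card M = Z.relIndex M * Nat.card Z := by
      have h7 := (Z.subgroupOf M).index_mul_card
      rw [Nat.card_congr (Subgroup.subgroupOfEquivOfLe (show Z ≤ M from center_le_cent x)).toEquiv] at h7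
      exact h7.symm
    rw [h6]
    exact Nat.mul_le_mul_right _ h5
  have c : 0 < Nat.card Z := Nat.card_pos
  have d : Nat.card Z ≤ Nat.card G := Subgroup.card_le_card_group _
  omega

end Hyp

end CfsgLib.MaxCent
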