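import Mathlib
import Cfsg.Agent.MaxCent.Count
import Cfsg.Prelude.Def_Transfer

/-!
The structure of the central quotient.
-/

set_option autoImplicit false

namespace CfsgLib.MaxCent

open scoped commutatorElement Pointwise

variable {G : Type*} [Group G] [Finite G]

namespace Hyp

variable (h : Hyp G)
include h

/-- If the commutators are central then the central quotient is elementary abelian. -/
theorem elementary (hG' : ∀ a b : G, ⁅a, b⁆ ∈ Subgroup.center G) (hna : ∃ x : G, x ∉ Subgroup.center G) :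
    ∃ p : ℕ, p.Prime ∧ Cfsg.IsElementaryAbelian p (⊤ : Subgroup (G ⧸ Subgroup.center G)) := by
  have hnorm : ∀ x : G, (cent x).Normal := fun x => ⟨fun n hn g => by
    have h1 : ⁅g, n⁆ ∈ cent x := center_le_cent x (hG' g n)
    have := (cent x).mul_mem h1 hn
    rwa [commutatorElement_def, inv_mul_cancel_right] at this⟩
  have key : ∀ (p : ℕ) (x : G), p.Prime → IsPElem p x → x ∉ Subgroup.center G → (cent x).index = p := by
    intro p x hp hx hx'
    obtain ⟨n, hn⟩ := hx
    haveI := hnorm x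
    have hl := prime_index (h x hx')
    by_contra hne
    refine hx' (Subgroup.mem_center_iff.2 fun g => ?_)
    have h1 : g ^ (cent x).index ∈ cent x := (cent x).pow_index_mem g
    have hcg : ∀ z : G, Commute ⁅x, g⁆ z := fun z => (Subgroup.mem_center_iff.1 (hG' x g) z).symm
    have hxg : x * g * x⁻¹ = ⁅x, g⁆ * g := by rw [commutatorElement_def]; group
    have h2 : ⁅x, g⁆ ^ (cent x).index = 1 := by
      have h3 : (x * g * x⁻¹) ^ (cent x).index = g ^ (cent x).index := by
        rw [conj_pow, ← (mem_cent.1 h1), mul_inv_cancel_right]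
      rw [hxg, (hcg g).mul_pow] at h3
      exact mul_eq_right.1 h3
    have h4 : ⁅x, g⁆ ^ p ^ n = 1 := by
      have h5 : (g * x * g⁻¹) ^ p ^ n = 1 := by rw [conj_pow, hn, mul_one, mul_inv_cancel]
      rw [show g * x * g⁻¹ = (⁅x, g⁆)⁻¹ * x by rw [commutatorElement_def]; group, ((hcg x).inv_left).mul_pow,
        hn, mul_one, inv_pow, inv_eq_one] at h5
      exact h5
    have h6 : ⁅x, g⁆ = 1 := orderOf_eq_one_iff.1 (Nat.eq_one_of_dvd_coprimes
      (((Nat.coprime_primes hl hp).2 hne).pow_right n) (orderOf_dvd_of_pow_eq_one h2) (orderOf_dvd_of_pow_eq_one h4))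
    exact (commutatorElement_eq_one_iff_mul_comm.1 h6).symm
  have uniq : ∀ (p q : ℕ) (x y : G), p.Prime → q.Prime → IsPElem p x → IsPElem q y → x ∉ Subgroup.center G →
      y ∉ Subgroup.center G → p = q := by
    intro p q x y hp hq hx hy hx' hy'
    by_contra hpq
    obtain ⟨a, ha⟩ := hx
    obtain ⟨b, hb⟩ := hy
    have hc : ∀ z : G, Commute ⁅x, y⁆ z := fun z => (Subgroup.mem_center_iff.1 (hG' x y) z).symm
    have h1 : ⁅x, y⁆ ^ q ^ b = 1 := by
      have h5 : (x * y * x⁻¹) ^ q ^ b = 1 := by rw [conj_pow, hb, mul_one, mul_inv_cancel]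
      rwa [show x * y * x⁻¹ = ⁅x, y⁆ * y by rw [commutatorElement_def]; group, (hc y).mul_pow, hb, mul_one] at h5
    have h2 : ⁅x, y⁆ ^ p ^ a = 1 := by
      have h5 : (y * x * y⁻¹) ^ p ^ a = 1 := by rw [conj_pow, ha, mul_one, mul_inv_cancel]
      rw [show y * x * y⁻¹ = (⁅x, y⁆)⁻¹ * x by rw [commutatorElement_def]; group, ((hc x).inv_left).mul_pow,
        ha, mul_one, inv_pow, inv_eq_one] at h5
      exact h5
    have h6 : ⁅x, y⁆ = 1 := orderOf_eq_one_iff.1 (Nat.eq_one_of_dvd_coprimes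
      (((Nat.coprime_primes hp hq).2 hpq).pow a b) (orderOf_dvd_of_pow_eq_one h2) (orderOf_dvd_of_pow_eq_one h1))
    have := h.eq_of_coprime hp hq hpq ⟨a, ha⟩ ⟨b, hb⟩ (commutatorElement_eq_one_iff_mul_comm.1 h6) hx' hy'
    exact hpq (by rw [← key p x hp ⟨a, ha⟩ hx', this, key q y hq ⟨b, hb⟩ hy'])
  obtain ⟨x0, hx0⟩ := hna
  obtain ⟨p, hp, x, hx, hx', -⟩ := h.exists_pElem x0 hx0
  refine ⟨p, hp, ⟨⟨fun a b => Subtype.ext ?_⟩⟩, fun a _ => ?_⟩
  · obtain ⟨a', ha'⟩ := QuotientGroup.mk_surjective (a : G ⧸ Subgroup.center G)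
    obtain ⟨b', hb'⟩ := QuotientGroup.mk_surjective (b : G ⧸ Subgroup.center G)
    show (a : G ⧸ Subgroup.center G) * b = b * a
    rw [← ha', ← hb', ← QuotientGroup.mk_mul, ← QuotientGroup.mk_mul, QuotientGroup.eq]
    rw [show (a' * b')⁻¹ * (b' * a') = ⁅b'⁻¹, a'⁻¹⁆ by rw [commutatorElement_def]; group]
    exact hG' _ _
  · obtain ⟨g, rfl⟩ := QuotientGroup.mk_surjective a
    rw [← QuotientGroup.mk_pow, QuotientGroup.eq_one_iff, Subgroup.mem_center_iff]
    intro z
    have hz : z ∈ cent (g ^ p) := mem_of_parts fun r hr k hk => mem_cent.2 (by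
      by_cases hzc : z ^ k ∈ Subgroup.center G
      · exact (Subgroup.mem_center_iff.1 hzc _).symm
      · haveI := hnorm (z ^ k)
        have e := uniq r p _ x hr hp hk hx hzc hx'
        have := (cent (z ^ k)).pow_index_mem g
        rw [key r _ hr hk hzc, e] at this
        exact (mem_cent.1 this).symm)
    exact mem_cent.1 hz

/-- The final configuration. -/
theorem endgame {A B : Subgroup G} (hA : IsCoatom A) (hAn : ¬ A.Normal) [hBn : B.Normal] (hB : IsCoatom B)
    (hBab : Ab B) (hAB : A ⊓ B = Subgroup.center G) :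
    ¬ IsMulCommutative (G ⧸ Subgroup.center G) ∧
      (∀ H : Subgroup (G ⧸ Subgroup.center G), H ≠ ⊤ → IsMulCommutative ↥H) ∧
      ∃ p q a : ℕ, p.Prime ∧ q.Prime ∧ p ≠ q ∧ Nat.card (G ⧸ Subgroup.center G) = p ^ a * q ∧
        ∀ P : Subgroup (G ⧸ Subgroup.center G), Nat.card ↥P = p ^ a → P.Normal := by
  classical
  set Q := G ⧸ Subgroup.center G with hQ
  set π := QuotientGroup.mk' (Subgroup.center G) with hπ
  have hπs : Function.Surjective π := QuotientGroup.mk'_surjective _
  have hZA : Subgroup.center G ≤ A := hAB ▸ inf_le_left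
  have hZB : Subgroup.center G ≤ B := hAB ▸ inf_le_right
  have hcA : (A.map π).comap π = A := by rw [Subgroup.comap_map_eq, hπ, QuotientGroup.ker_mk', sup_eq_left.2 hZA]
  have hcB : (B.map π).comap π = B := by rw [Subgroup.comap_map_eq, hπ, QuotientGroup.ker_mk', sup_eq_left.2 hZB]
  have hco : ∀ M : Subgroup G, IsCoatom M → (M.map π).comap π = M → IsCoatom (M.map π) := by
    intro M hM hc
    refine ⟨fun e => hM.1 (by rw [← hc, e, Subgroup.comap_top]), fun C hC => ?_⟩
    have h1 : M < C.comap π := by rw [← hc]; exact (Subgroup.comap_lt_comap_of_surjective hπs).2 hC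
    rw [← Subgroup.map_comap_eq_self_of_surjective hπs C, hM.2 _ h1, Subgroup.map_top_of_surjective _ hπs]
  set A' := A.map π with hA'
  set B' := B.map π with hB'
  have hA'c := hco A hA hcA
  have hB'c := hco B hB hcB
  haveI hB'n : B'.Normal := Subgroup.Normal.map inferInstance π hπs
  have hA'n : ¬ A'.Normal := fun hn => hAn (hcA ▸ hn.comap π)
  have hdis : A' ⊓ B' = ⊥ := by
    apply Subgroup.comap_injective hπs
    rw [Subgroup.comap_inf, hcA, hcB, hAB, MonoidHom.comap_bot, hπ, QuotientGroup.ker_mk']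
  have hB'ab : ∀ a ∈ B', ∀ b ∈ B', a * b = b * a := by
    rintro _ ⟨a, ha, rfl⟩ _ ⟨b, hb, rfl⟩
    rw [← map_mul, ← map_mul, hBab a ha b hb]
  have hsup : A' ⊔ B' = ⊤ := hA'c.2 _ (lt_of_le_of_ne le_sup_left fun e => hA'n (by
    rcases eq_or_lt_of_le (le_sup_right.trans e.ge : B' ≤ A') with e' | e'
    · rw [← e']; infer_instance
    · exact absurd (hB'c.2 _ e') hA'c.1))
  have hcomp : Subgroup.IsComplement' B' A' := by
    refine Subgroup.isComplement'_of_disjoint_and_mul_eq_univ (disjoint_iff.2 (by rw [inf_comm, hdis])) ?_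
    rw [← Subgroup.normal_mul, sup_comm, hsup]
    rfl
  have hcard : Nat.card B' * Nat.card A' = Nat.card Q := hcomp.card_mul
  have hA'card : Nat.card A' = B'.index := (hcomp.symm.index_eq_card).symm
  have hq : B'.index.Prime := prime_index hB'c
  set q := B'.index with hqdef
  have hnc : ¬ IsMulCommutative Q := fun hc => hA'n ⟨fun n hn g => by
    rw [hc.1.1 g n, mul_inv_cancel_right]; exact hn⟩
  -- a normal subgroup inside `B'`
  have hmin : ∀ W : Subgroup Q, W.Normal → W ≤ B' → W ≠ ⊥ → W = B' := by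
    intro W hW hWB hW1
    haveI := hW
    have htop : A' ⊔ W = ⊤ := hA'c.2 _ (lt_of_le_of_ne le_sup_left fun e => hW1 (eq_bot_iff.2 fun w hw =>
      hdis.le ⟨e.ge (Subgroup.mem_sup_right hw), hWB hw⟩))
    refine le_antisymm hWB fun b hb => ?_
    obtain ⟨a, ha, w, hw, rfl⟩ := Subgroup.mem_sup_of_normal_right.1 (htop.ge (Subgroup.mem_top b))
    have : a ∈ A' ⊓ B' := ⟨ha, by simpa [mul_assoc] using B'.mul_mem hb (B'.inv_mem (hWB hw))⟩
    rw [hdis, Subgroup.mem_bot] at this
    rw [this, one_mul]; exact hw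
  have hB'1 : B' ≠ ⊥ := fun e => hnc ⟨⟨fun a b => by
    have hAtop : A' = ⊤ := by rwa [e, sup_bot_eq] at hsup
    exact absurd hAtop hA'c.1⟩⟩
  obtain ⟨p, hp, hpd⟩ := Nat.exists_prime_and_dvd (fun e => hB'1 (Subgroup.eq_bot_of_card_eq B' e))
  haveI := Fact.mk hp
  let W : Subgroup Q :=
    { carrier := {w | w ∈ B' ∧ w ^ p = 1}
      one_mem' := ⟨one_mem B', one_pow p⟩
      mul_mem' := fun {a b} ha hb => ⟨mul_mem ha.1 hb.1, by
        rw [(show Commute a b from hB'ab a ha.1 b hb.1).mul_pow, ha.2, hb.2, mul_one]⟩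
      inv_mem' := fun {a} ha => ⟨inv_mem ha.1, by rw [inv_pow, ha.2, inv_one]⟩ }
  have hWn : W.Normal := ⟨fun w hw g => ⟨hB'n.conj_mem w hw.1 g, by rw [conj_pow, hw.2, mul_one, mul_inv_cancel]⟩⟩
  have hWB : W = B' := by
    refine hmin W hWn (fun w hw => hw.1) fun e => ?_
    obtain ⟨w, hw⟩ := exists_prime_orderOf_dvd_card' (G := B') p hpd
    have hmem : (w : Q) ∈ W := ⟨w.2, by rw [← SubgroupClass.coe_pow, ← hw, pow_orderOf_eq_one]; rfl⟩
    rw [e, Subgroup.mem_bot] at hmem
    exact hp.ne_one (by rw [← hw, orderOf_eq_one_iff]; exact Subtype.ext hmem)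
  have hB'p : IsPGroup p B' := fun w => ⟨1, Subtype.ext (by
    rw [pow_one, SubgroupClass.coe_pow]; exact (hWB.ge w.2).2)⟩
  obtain ⟨a, ha⟩ := hB'p.exists_card_eq
  have hpq : p ≠ q := by
    intro e
    apply hA'n
    have hQp : IsPGroup p Q := IsPGroup.of_card (n := a + 1) (by rw [← hcard, ha, hA'card, ← e, pow_succ])
    haveI := hQp.isNilpotent
    exact Subgroup.NormalizerCondition.normal_of_coatom _ Group.normalizerCondition_of_isNilpotent hA'c
  refine ⟨hnc, fun H hH => ?_, p, q, a, hp, hq, hpq, by rw [← hcard, ha, hA'card], fun P hP => ?_⟩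
  · by_cases hHB : H ≤ B'
    · exact ⟨⟨fun a b => Subtype.ext (hB'ab a (hHB a.2) b (hHB b.2))⟩⟩
    · have hHtop : H ⊔ B' = ⊤ :=
        hB'c.2 _ (lt_of_le_of_ne le_sup_right fun e => hHB (le_sup_left.trans e.ge))
      have hn : (H ⊓ B').Normal := by
        refine Subgroup.normalizer_eq_top_iff.1 (eq_top_iff.2 (hHtop.ge.trans (sup_le ?_ ?_)))
        · exact Subgroup.le_normalizer_iff.2 fun g hg z hz =>
            ⟨H.mul_mem (H.mul_mem hg hz.1) (H.inv_mem hg), hB'n.conj_mem z hz.2 g⟩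
        · exact Subgroup.le_normalizer_iff.2 fun g hg z hz => by
            rw [hB'ab g hg z hz.2, mul_inv_cancel_right]; exact hz
      have hbot : H ⊓ B' = ⊥ := by
        by_contra hne
        have := hmin _ hn inf_le_right hne
        exact hH (top_le_iff.1 (hHtop.ge.trans (sup_le le_rfl (this.ge.trans inf_le_left))))
      haveI := Fact.mk hq
      haveI : IsCyclic (Q ⧸ B') := isCyclic_of_prime_card (p := q) B'.index_eq_card.symm
      letI : CommGroup (Q ⧸ B') := IsCyclic.commGroup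
      refine ⟨⟨fun a b => ?_⟩⟩
      have h1 : (⁅(a : Q), (b : Q)⁆ : Q) ∈ H ⊓ B' := ⟨by
        rw [commutatorElement_def]
        exact H.mul_mem (H.mul_mem (H.mul_mem a.2 b.2) (H.inv_mem a.2)) (H.inv_mem b.2), commutator_mem_of_normal hB'c _ _⟩
      rw [hbot, Subgroup.mem_bot, commutatorElement_eq_one_iff_mul_comm] at h1
      exact Subtype.ext h1
  · have hPB : P = B' := by
      refine Subgroup.eq_of_le_of_card_ge (fun z hz => ?_) (by rw [hP, ha])
      haveI := Fact.mk hq
      rw [← QuotientGroup.eq_one_iff]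
      refine orderOf_eq_one_iff.1 (Nat.eq_one_of_dvd_coprimes (a := p ^ a) (b := q)
        (((Nat.coprime_primes hp hq).2 hpq).pow_left a) ?_ ?_)
      · exact (orderOf_map_dvd (QuotientGroup.mk' B') z).trans (hP ▸ Subgroup.orderOf_dvd_natCard P hz)
      · rw [hqdef, B'.index_eq_card]
        exact orderOf_dvd_natCard _
    rw [hPB]
    exact hB'n

end Hyp

/-- The structure theorem. -/
theorem main (hna : ¬ IsMulCommutative G) (h : Hyp G) :
    (∃ p : ℕ, p.Prime ∧ Cfsg.IsElementaryAbelian p (⊤ : Subgroup (G ⧸ Subgroup.center G))) ∨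
    (¬ IsMulCommutative (G ⧸ Subgroup.center G) ∧
      (∀ H : Subgroup (G ⧸ Subgroup.center G), H ≠ ⊤ → IsMulCommutative ↥H) ∧
      ∃ p q a : ℕ, p.Prime ∧ q.Prime ∧ p ≠ q ∧ Nat.card (G ⧸ Subgroup.center G) = p ^ a * q ∧
        ∀ P : Subgroup (G ⧸ Subgroup.center G), Nat.card ↥P = p ^ a → P.Normal) := by
  obtain ⟨x0, hx0⟩ : ∃ x : G, x ∉ Subgroup.center G := by
    by_contra hcon
    push Not at hcon
    exact hna ⟨⟨fun a b => (Subgroup.mem_center_iff.1 (hcon b) a)⟩⟩
  by_cases hall : ∀ x : G, x ∉ Subgroup.center G → (cent x).Normal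
  · refine Or.inl (h.elementary (fun a b => Subgroup.mem_center_iff.2 fun g => ?_) ⟨x0, hx0⟩)
    by_cases hg : g ∈ Subgroup.center G
    · exact (Subgroup.mem_center_iff.1 hg _).symm
    · haveI := hall g hg
      exact (mem_cent.1 (commutator_mem_of_normal (h g hg) a b)).symm
  push Not at hall
  obtain ⟨x, hx, hxn⟩ := hall
  have hP : ∀ l : ℕ, l.Prime → ¬ PMod l G := by
    intro l hl hl'
    haveI := isNilpotent_of_pows hl hl'
    exact hxn (Subgroup.NormalizerCondition.normal_of_coatom _ Group.normalizerCondition_of_isNilpotent (h x hx))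
  have hxab := h.ab_all hP x hx
  obtain ⟨y, hy, hyout⟩ := h.exists_outside hx hxab hxn
  have hyab := h.ab_all hP y hy
  have hyn : (cent y).Normal := by
    by_contra hn
    obtain ⟨u, hu⟩ := h.conj_of_ab hx hxab hxn hy hyab hn
    exact hyout u (mem_conj_smul_iff.1 (hu ▸ self_mem_cent y))
  haveI := hyn
  refine Or.inr (h.endgame (h x hx) hxn (h y hy) hyab (le_antisymm (fun z hz => ?_) (le_inf (center_le_cent x)
    (center_le_cent y))))
  by_contra hzc
  exact hxn (((h.eq_of_ab hx hzc hxab hz.1).symm.trans (h.eq_of_ab hy hzc hyab hz.2)) ▸ hyn)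

end CfsgLib.MaxCent
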